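import Mathlib
import Cfsg.Prelude.Def_Solvable

/-!
# McLaughlin's theorem over `F_p`, `p` odd (S5075): shared definitions and piece statements

`Sys Q`: an abstract connected "transvection system": `Q φ v` says that the transvection
`x ↦ x + φ x • v` belongs to the system.  The piece statements below are `Prop`-valued
definitions; each piece is a theorem `main : <Def>.{..}` in its own file.
-/

set_option autoImplicit false

namespace Cfsg.Agent.Lib.Helper83.MclStmt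

universe u v w

/-- An abstract connected transvection system on `V`: `Q φ v` means "the transvection
`x ↦ x + φ x • v` is in the system" (`φ v = 0`; pairs with `φ = 0` or `v = 0` are always in). -/
structure Sys {F : Type u} [Field F] {V : Type v} [AddCommGroup V] [Module F V]
    (Q : Module.Dual F V → V → Prop) : Prop where
  zero : ∀ φ v, Q φ v → φ v = 0
  zero_left : ∀ v, Q 0 v
  zero_right : ∀ φ, Q φ 0
  add_left : ∀ φ φ' v, Q φ v → Q φ' v → Q (φ + φ') v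
  add_right : ∀ φ v v', Q φ v → Q φ v' → Q φ (v + v')
  smul_left : ∀ (c : F) φ v, Q φ v → Q (c • φ) v
  smul_right : ∀ (c : F) φ v, Q φ v → Q φ (c • v)
  /-- conjugation of `(φ, v)` by the transvection of `(ψ, w)` -/
  conj : ∀ φ v ψ w, Q φ v → Q ψ w → Q (φ - φ w • ψ) (v + ψ v • w)
  /-- commutator rules (consequences of `conj`, recorded for convenience) -/
  rule_R : ∀ φ v ψ w, Q φ v → Q ψ w → φ w ≠ 0 → ψ v = 0 → Q ψ v
  rule_R' : ∀ φ v ψ w, Q φ v → Q ψ w → φ w = 0 → ψ v ≠ 0 → Q φ w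
  /-- hyperbolic line rule: two opposite pairs, normalised by `ψ v = - φ w`, generate an `SL₂`
  all of whose transvections are in the system -/
  rule_hyp : ∀ φ v ψ w, Q φ v → Q ψ w → φ w ≠ 0 → ψ v = - φ w →
    ∀ a b : F, Q (a • φ + b • ψ) (a • v + b • w)
  /-- every non-trivial pair has an opposite pair -/
  opp : ∀ φ v, Q φ v → φ ≠ 0 → v ≠ 0 → ∃ ψ w, Q ψ w ∧ φ w ≠ 0 ∧ ψ v ≠ 0
  /-- the graph of opposite pairs is connected -/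
  conn : ∀ φ v ψ w, Q φ v → φ ≠ 0 → v ≠ 0 → Q ψ w → ψ ≠ 0 → w ≠ 0 →
    Relation.ReflTransGen (fun a b : Module.Dual F V × V =>
      Q a.1 a.2 ∧ Q b.1 b.2 ∧ a.1 b.2 ≠ 0 ∧ b.1 a.2 ≠ 0) (φ, v) (ψ, w)

/-- The span of the centres of the non-trivial pairs of `Q`. -/
def cen {F : Type u} [Field F] {V : Type v} [AddCommGroup V] [Module F V]
    (Q : Module.Dual F V → V → Prop) : Submodule F V :=
  Submodule.span F {v | ∃ φ, φ ≠ 0 ∧ v ≠ 0 ∧ Q φ v}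

/-- The intersection of the axes (kernels of the functionals) of the non-trivial pairs of `Q`. -/
def ax {F : Type u} [Field F] {V : Type v} [AddCommGroup V] [Module F V]
    (Q : Module.Dual F V → V → Prop) : Submodule F V :=
  ⨅ (φ : Module.Dual F V) (v : V) (_ : φ ≠ 0 ∧ v ≠ 0 ∧ Q φ v), LinearMap.ker φ

/-- Piece TV: an element of order `p` fixing a hyperplane pointwise is a transvection. -/
def TV : Prop := ∀ (p : ℕ) [Fact p.Prime] (V : Type u) [AddCommGroup V] [Module (ZMod p) V]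
  [Finite V] (t : V ≃ₗ[ZMod p] V), orderOf t = p →
  Module.finrank (ZMod p) ↥(LinearMap.ker ((t : V →ₗ[ZMod p] V) - LinearMap.id)) + 1 =
    Module.finrank (ZMod p) V →
  ∃ (φ : Module.Dual (ZMod p) V) (v : V) (h : φ v = 0), φ ≠ 0 ∧ v ≠ 0 ∧
    t = LinearEquiv.transvection h

/-- Piece SLG: linear automorphisms of determinant 1 are products of transvections. -/
def SLG : Prop := ∀ (F : Type u) [Field F] (W : Type v) [AddCommGroup W] [Module F W]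
  [FiniteDimensional F W] (f : W ≃ₗ[F] W), LinearMap.det (f : W →ₗ[F] W) = 1 →
  f ∈ Subgroup.closure (LinearEquiv.transvections F W)

/-- Piece LIN: a relation additive off a hyperplane is the graph of a linear map. -/
def LIN : Prop := ∀ (F : Type u) [Field F] (X : Type v) [AddCommGroup X] [Module F X]
  (Y : Type w) [AddCommGroup Y] [Module F Y] (χ : X →ₗ[F] F) (P : X → Y → Prop),
  (2 : F) ≠ 0 →
  (∀ x ξ, P x ξ → χ x ≠ 0) →
  (∀ x ξ x' ξ', P x ξ → P x' ξ' → χ (x + x') ≠ 0 → P (x + x') (ξ + ξ')) →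
  (∀ x ξ (c : F), c ≠ 0 → P x ξ → P (c • x) (c • ξ)) →
  (∀ x ξ ξ', P x ξ → P x ξ' → ξ = ξ') →
  ∃ β : X →ₗ[F] Y, (∀ x ξ, P x ξ → β x = ξ) ∧
    ∀ x ∈ Submodule.span F {x | ∃ ξ, P x ξ}, χ x ≠ 0 → P x (β x)

/-- Piece OP: if `O_p(H) = 1`, an element of `H` acting trivially on the factors of an
`H`-invariant flag `0 ≤ Z₁, Z₂ ≤ V` is trivial. -/
def OP : Prop := ∀ (p : ℕ) [Fact p.Prime] (V : Type u) [AddCommGroup V] [Module (ZMod p) V]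
  (H : Subgroup (V ≃ₗ[ZMod p] V)), Cfsg.pCore p ↥H = ⊥ →
  ∀ (Z₁ Z₂ : Submodule (ZMod p) V), (∀ h ∈ H, ∀ x ∈ Z₁, h x ∈ Z₁) →
  (∀ h ∈ H, ∀ x ∈ Z₂, h x ∈ Z₂) →
  ∀ g ∈ H, (∀ x, g x - x ∈ Z₂) → (∀ x ∈ Z₂, g x - x ∈ Z₁) → (∀ x ∈ Z₁, g x = x) → g = 1

/-- Piece SLC: the group generated by all transvections with centre in `W` and axis containing
`C` (`V = W ⊕ C`) induces exactly `SL(W)` on `W`. -/
def SLC : Prop := SLG.{u, v} → ∀ (F : Type u) [Field F] (V : Type v) [AddCommGroup V] [Module F V]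
  [FiniteDimensional F V] (W C : Submodule F V), IsCompl W C →
  ∀ K : Subgroup (V ≃ₗ[F] V),
  K = Subgroup.closure {t | ∃ (φ : Module.Dual F V) (v : V) (h : φ v = 0),
    v ∈ W ∧ (∀ x ∈ C, φ x = 0) ∧ t = LinearEquiv.transvection h} →
  ∃ ρ : ↥K →* (↥W ≃ₗ[F] ↥W),
    (∀ (h : ↥K) (v : ↥W), ((ρ h v : ↥W) : V) = (h : V ≃ₗ[F] V) (v : V)) ∧
    (ρ.range : Set (↥W ≃ₗ[F] ↥W)) =
      {f : ↥W ≃ₗ[F] ↥W | LinearMap.det (f : ↥W →ₗ[F] ↥W) = 1}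

/-- Piece SPC: the group generated by the transvections `y ↦ y + c * β x y • x`, `x ∈ W`,
induces exactly the isometry group of a non-degenerate alternating form on `W`. -/
def SPC : Prop := ∀ (F : Type u) [Field F] (V : Type v) [AddCommGroup V] [Module F V]
  [FiniteDimensional F V] (W C : Submodule F V), IsCompl W C →
  ∀ (β : V →ₗ[F] Module.Dual F V), (∀ x ∈ W, ∀ y ∈ C, β x y = 0) → (∀ x ∈ W, β x x = 0) →
  (∀ x ∈ W, x ≠ 0 → ∃ y ∈ W, β x y ≠ 0) →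
  ∀ K : Subgroup (V ≃ₗ[F] V),
  K = Subgroup.closure {t | ∃ (x : V) (c : F) (h : (c • β x) x = 0),
    x ∈ W ∧ t = LinearEquiv.transvection h} →
  ∃ ρ : ↥K →* (↥W ≃ₗ[F] ↥W),
    (∀ (h : ↥K) (v : ↥W), ((ρ h v : ↥W) : V) = (h : V ≃ₗ[F] V) (v : V)) ∧
    ∃ B : LinearMap.BilinForm F ↥W, B.IsAlt ∧ B.Nondegenerate ∧
      (ρ.range : Set (↥W ≃ₗ[F] ↥W)) = {f : ↥W ≃ₗ[F] ↥W | ∀ x y, B (f x) (f y) = B x y}

/-- Piece SLCORE: a connected system in which some centre has two independent axes is the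
system of all transvections of `cen Q` (trivial on `ax Q`). -/
def SLCORE : Prop := ∀ (F : Type u) [Field F] (V : Type v) [AddCommGroup V] [Module F V]
  [FiniteDimensional F V] (Q : Module.Dual F V → V → Prop), Sys Q → (2 : F) ≠ 0 →
  (∃ v φ₁ φ₂, v ≠ 0 ∧ Q φ₁ v ∧ Q φ₂ v ∧ LinearIndependent F ![φ₁, φ₂]) →
  IsCompl (cen Q) (ax Q) ∧
    ∀ φ v, Q φ v ↔ (φ = 0 ∨ v = 0 ∨ (v ∈ cen Q ∧ (∀ x ∈ ax Q, φ x = 0) ∧ φ v = 0))

/-- Piece SPCORE: a connected system in which every centre has only one axis is the system of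
symplectic transvections of a form `β` on `cen Q`. -/
def SPCORE : Prop := LIN.{u, v, max u v} → ∀ (F : Type u) [Field F] (V : Type v) [AddCommGroup V]
  [Module F V] [FiniteDimensional F V] (Q : Module.Dual F V → V → Prop), Sys Q → (2 : F) ≠ 0 →
  (∀ v φ₁ φ₂, v ≠ 0 → φ₁ ≠ 0 → Q φ₁ v → Q φ₂ v → ∃ c : F, φ₂ = c • φ₁) →
  (∀ φ v φ' v', Q φ v → Q φ' v' → (∀ x ∈ cen Q, φ x • v - φ' x • v' ∈ ax Q) →
    ∀ x, φ x • v = φ' x • v') →
  ∃ β : V →ₗ[F] Module.Dual F V, IsCompl (cen Q) (ax Q) ∧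
    (∀ x ∈ cen Q, ∀ y ∈ ax Q, β x y = 0) ∧ (∀ x ∈ cen Q, β x x = 0) ∧
    (∀ x ∈ cen Q, x ≠ 0 → ∃ y ∈ cen Q, β x y ≠ 0) ∧
    ∀ φ v, Q φ v ↔ (φ = 0 ∨ v = 0 ∨ (v ∈ cen Q ∧ ∃ c : F, φ = c • β v))

/-- Piece ASM: assembly of the components into the conclusion of S5075. -/
def ASM : Prop := ∀ (F : Type u) [Field F] (V : Type v) [AddCommGroup V] [Module F V]
  [FiniteDimensional F V] (H : Subgroup (V ≃ₗ[F] V)) (ι : Type w) [Finite ι] [Nonempty ι]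
  (W C : ι → Submodule F V) (K : ι → Subgroup (V ≃ₗ[F] V)),
  (∀ i, IsCompl (W i) (C i)) →
  (∀ i j, i ≠ j → W j ≤ C i) →
  (∀ i, K i ≤ H) →
  (∀ i, ∀ h ∈ H, ∀ k ∈ K i, h * k * h⁻¹ ∈ K i) →
  (⨆ i, K i) = H →
  (∀ i, ∀ k ∈ K i, ∀ x ∈ C i, k x = x) →
  (∀ i, ∀ k ∈ K i, ∀ x ∈ W i, k x ∈ W i) →
  (∀ i, ∃ ρ : ↥(K i) →* (↥(W i) ≃ₗ[F] ↥(W i)),
    (∀ (h : ↥(K i)) (v : ↥(W i)), ((ρ h v : ↥(W i)) : V) = (h : V ≃ₗ[F] V) (v : V)) ∧
    ((ρ.range : Set (↥(W i) ≃ₗ[F] ↥(W i))) =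
        {f : ↥(W i) ≃ₗ[F] ↥(W i) | LinearMap.det (f : ↥(W i) →ₗ[F] ↥(W i)) = 1} ∨
      ∃ B : LinearMap.BilinForm F ↥(W i), B.IsAlt ∧ B.Nondegenerate ∧
        (ρ.range : Set (↥(W i) ≃ₗ[F] ↥(W i))) =
          {f : ↥(W i) ≃ₗ[F] ↥(W i) | ∀ x y, B (f x) (f y) = B x y})) →
  ∃ (n : ℕ) (W' : Fin (n + 1) → Submodule F V) (K' : Fin n → Subgroup (V ≃ₗ[F] V)),
    1 ≤ n ∧ DirectSum.IsInternal W' ∧
    (∀ h ∈ H, ∀ i, (W' i).map (h : V →ₗ[F] V) = W' i) ∧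
    (∀ j, K' j ≤ H ∧ ((K' j).subgroupOf H).Normal) ∧ ⨆ j, K' j = H ∧
    (∀ j, K' j ⊓ (⨆ j' ∈ {j' : Fin n | j' ≠ j}, K' j') = ⊥) ∧
    (∀ j j', j ≠ j' → ∀ a ∈ K' j, ∀ b ∈ K' j', a * b = b * a) ∧
    (∀ j, ∀ h ∈ K' j, ∀ i : Fin (n + 1), i ≠ j.succ → ∀ v ∈ W' i, h v = v) ∧
    (∀ j, ∃ ρ : ↥(K' j) →* (↥(W' j.succ) ≃ₗ[F] ↥(W' j.succ)),
      (∀ (h : ↥(K' j)) (v : ↥(W' j.succ)), ((ρ h v : ↥(W' j.succ)) : V) = (h : V ≃ₗ[F] V) (v : V)) ∧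
      ((ρ.range : Set (↥(W' j.succ) ≃ₗ[F] ↥(W' j.succ))) =
          {f : ↥(W' j.succ) ≃ₗ[F] ↥(W' j.succ) | LinearMap.det (f : ↥(W' j.succ) →ₗ[F] ↥(W' j.succ)) = 1} ∨
        ∃ B : LinearMap.BilinForm F ↥(W' j.succ), B.IsAlt ∧ B.Nondegenerate ∧
          (ρ.range : Set (↥(W' j.succ) ≃ₗ[F] ↥(W' j.succ))) = {f : ↥(W' j.succ) ≃ₗ[F] ↥(W' j.succ) | ∀ x y, B (f x) (f y) = B x y}))

end Cfsg.Agent.Lib.Helper83.MclStmt
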