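import Mathlib
import Cfsg.Agent.Lib.Helper83.MclStmt

/-!
# S5075 glue, part 1: basic transvection systems and the pairs of a linear group
-/

set_option autoImplicit false

namespace Cfsg.Agent.Lib.Helper83.MclPair

open Cfsg.Agent.Lib.Helper83.MclStmt

universe u v

section Basic

variable {F : Type u} [Field F] {V : Type v} [AddCommGroup V] [Module F V]

/-- The basic closure axioms of a transvection system. -/
structure Sys0 (Q : Module.Dual F V → V → Prop) : Prop where
  zero : ∀ φ v, Q φ v → φ v = 0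
  zero_left : ∀ v, Q 0 v
  zero_right : ∀ φ, Q φ 0
  add_left : ∀ φ φ' v, Q φ v → Q φ' v → Q (φ + φ') v
  add_right : ∀ φ v v', Q φ v → Q φ v' → Q φ (v + v')
  smul_left : ∀ (c : F) φ v, Q φ v → Q (c • φ) v
  smul_right : ∀ (c : F) φ v, Q φ v → Q φ (c • v)
  conj : ∀ φ v ψ w, Q φ v → Q ψ w → Q (φ - φ w • ψ) (v + ψ v • w)

variable {Q : Module.Dual F V → V → Prop}

theorem Sys0.rule_R (hQ : Sys0 Q) (φ : Module.Dual F V) (v : V) (ψ : Module.Dual F V) (w : V)
    (h1 : Q φ v) (h2 : Q ψ w) (h3 : φ w ≠ 0) (h4 : ψ v = 0) : Q ψ v := by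
  have h5 := hQ.conj φ v ψ w h1 h2
  rw [h4, zero_smul, add_zero] at h5
  have h6 := hQ.add_left _ _ v h5 (hQ.smul_left (-1) φ v h1)
  have h7 := hQ.smul_left (-(φ w)⁻¹) _ v h6
  have e : (-(φ w)⁻¹) • (φ - φ w • ψ + (-1 : F) • φ) = ψ := by
    rw [show φ - φ w • ψ + (-1 : F) • φ = (-(φ w)) • ψ by module, smul_smul]
    rw [show -(φ w)⁻¹ * -(φ w) = 1 by field_simp, one_smul]
  rwa [e] at h7

theorem Sys0.rule_R' (hQ : Sys0 Q) (φ : Module.Dual F V) (v : V) (ψ : Module.Dual F V) (w : V)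
    (h1 : Q φ v) (h2 : Q ψ w) (h3 : φ w = 0) (h4 : ψ v ≠ 0) : Q φ w := by
  have h5 := hQ.conj φ v ψ w h1 h2
  rw [h3, zero_smul, sub_zero] at h5
  have h6 := hQ.add_right φ _ _ h5 (hQ.smul_right (-1) φ v h1)
  have h7 := hQ.smul_right (ψ v)⁻¹ φ _ h6
  have e : (ψ v)⁻¹ • (v + ψ v • w + (-1 : F) • v) = w := by
    rw [show v + ψ v • w + (-1 : F) • v = (ψ v) • w by module, smul_smul]
    rw [inv_mul_cancel₀ h4, one_smul]
  rwa [e] at h7

theorem Sys0.rule_hyp (hQ : Sys0 Q) (φ : Module.Dual F V) (v : V) (ψ : Module.Dual F V) (w : V)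
    (h1 : Q φ v) (h2 : Q ψ w) (h3 : φ w ≠ 0) (h4 : ψ v = - φ w) (a b : F) :
    Q (a • φ + b • ψ) (a • v + b • w) := by
  have hφv := hQ.zero φ v h1
  have hψw := hQ.zero ψ w h2
  by_cases hb : b = 0
  · subst hb
    rw [zero_smul, zero_smul, add_zero, add_zero]
    exact hQ.smul_right a _ v (hQ.smul_left a φ v h1)
  · set c := φ w with hc
    set b' : F := -b / c with hb'
    set a' : F := (a - 1) / (b * c) with ha'
    have s1 := hQ.conj φ v (b' • ψ) w h1 (hQ.smul_left b' ψ w h2)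
    have s2 := hQ.conj _ _ (a' • φ) v s1 (hQ.smul_left a' φ v h1)
    have e0 : (b' • ψ) v = b := by
      rw [LinearMap.smul_apply, h4, smul_eq_mul, hb']; field_simp
    have e1 : (φ - φ w • b' • ψ) v = - (b * c) := by
      rw [LinearMap.sub_apply, LinearMap.smul_apply, e0, hφv, smul_eq_mul, ← hc]; ring
    have e2 : (a' • φ) (v + (b' • ψ) v • w) = a - 1 := by
      rw [e0, LinearMap.smul_apply, map_add, map_smul, hφv, ← hc, smul_eq_mul, smul_eq_mul, ha']
      field_simp; ring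
    rw [e1, e2, e0] at s2
    have e3 : φ - φ w • b' • ψ - -(b * c) • a' • φ = a • φ + b • ψ := by
      rw [← hc, smul_smul, smul_smul]
      rw [show c * b' = -b by rw [hb']; field_simp]
      rw [show -(b * c) * a' = -(a - 1) by rw [ha']; field_simp]
      module
    have e4 : v + b • w + (a - 1) • v = a • v + b • w := by module
    rwa [e3, e4] at s2

end Basic

section Group

variable {p : ℕ} [Fact p.Prime] {V : Type u} [AddCommGroup V] [Module (ZMod p) V]

/-- `Pr H φ v`: the transvection `x ↦ x + φ x • v` (with `φ v = 0`) lies in `H`. -/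
def Pr (H : Subgroup (V ≃ₗ[ZMod p] V)) (φ : Module.Dual (ZMod p) V) (v : V) : Prop :=
  ∃ h : φ v = 0, LinearEquiv.transvection h ∈ H

variable {H : Subgroup (V ≃ₗ[ZMod p] V)}

theorem Pr.zero {φ : Module.Dual (ZMod p) V} {v : V} (h : Pr H φ v) : φ v = 0 := h.1

theorem Pr.mem {φ : Module.Dual (ZMod p) V} {v : V} (h : Pr H φ v) (h0 : φ v = 0) :
    LinearEquiv.transvection h0 ∈ H := h.2

theorem tv_apply {φ : Module.Dual (ZMod p) V} {v : V} (h : φ v = 0) (x : V) :
    LinearEquiv.transvection h x = x + φ x • v := rfl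

theorem tv_inv_apply {φ : Module.Dual (ZMod p) V} {v : V} (h : φ v = 0) (x : V) :
    (LinearEquiv.transvection h)⁻¹ x = x - φ x • v := by
  rw [LinearEquiv.transvection.inv_eq' h (by rw [LinearMap.neg_apply, h, neg_zero]), tv_apply]
  simp [sub_eq_add_neg]

theorem pr_zero_left (H : Subgroup (V ≃ₗ[ZMod p] V)) (v : V) : Pr H 0 v := by
  have h0 : (0 : Module.Dual (ZMod p) V) v = 0 := rfl
  refine ⟨h0, ?_⟩
  have : LinearEquiv.transvection h0 = 1 := by
    ext x; simp
  rw [this]; exact H.one_mem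

theorem pr_zero_right (H : Subgroup (V ≃ₗ[ZMod p] V)) (φ : Module.Dual (ZMod p) V) :
    Pr H φ 0 := by
  refine ⟨map_zero φ, ?_⟩
  have : LinearEquiv.transvection (map_zero φ) = 1 := by
    ext x; simp
  rw [this]; exact H.one_mem

theorem pr_add_left {φ φ' : Module.Dual (ZMod p) V} {v : V} (h1 : Pr H φ v) (h2 : Pr H φ' v) :
    Pr H (φ + φ') v := by
  obtain ⟨a1, b1⟩ := h1
  obtain ⟨a2, b2⟩ := h2
  have a3 : (φ + φ') v = 0 := by rw [LinearMap.add_apply, a1, a2, add_zero]
  refine ⟨a3, ?_⟩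
  have : LinearEquiv.transvection a3 = LinearEquiv.transvection a1 * LinearEquiv.transvection a2 := by
    ext x
    rw [LinearEquiv.mul_apply, tv_apply, tv_apply, tv_apply]
    simp only [map_add, map_smul, a1, smul_eq_mul, mul_zero, add_zero, LinearMap.add_apply]
    module
  rw [this]; exact H.mul_mem b1 b2

theorem pr_add_right {φ : Module.Dual (ZMod p) V} {v v' : V} (h1 : Pr H φ v) (h2 : Pr H φ v') :
    Pr H φ (v + v') := by
  obtain ⟨a1, b1⟩ := h1
  obtain ⟨a2, b2⟩ := h2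
  have a3 : φ (v + v') = 0 := by rw [map_add, a1, a2, add_zero]
  refine ⟨a3, ?_⟩
  have : LinearEquiv.transvection a3 = LinearEquiv.transvection a1 * LinearEquiv.transvection a2 := by
    ext x
    rw [LinearEquiv.mul_apply, tv_apply, tv_apply, tv_apply]
    simp only [map_add, map_smul, a2, smul_eq_mul, mul_zero, add_zero]
    module
  rw [this]; exact H.mul_mem b1 b2

theorem pr_nsmul_left {φ : Module.Dual (ZMod p) V} {v : V} (h1 : Pr H φ v) (n : ℕ) :
    Pr H (n • φ) v := by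
  induction n with
  | zero => rw [zero_smul]; exact pr_zero_left H v
  | succ n ih => rw [succ_nsmul]; exact pr_add_left ih h1

theorem pr_smul_left {φ : Module.Dual (ZMod p) V} {v : V} (h1 : Pr H φ v) (c : ZMod p) :
    Pr H (c • φ) v := by
  have := pr_nsmul_left h1 c.val
  rwa [← Nat.cast_smul_eq_nsmul (ZMod p), ZMod.natCast_zmod_val] at this

theorem pr_nsmul_right {φ : Module.Dual (ZMod p) V} {v : V} (h1 : Pr H φ v) (n : ℕ) :
    Pr H φ (n • v) := by
  induction n with
  | zero => rw [zero_smul]; exact pr_zero_right H φ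
  | succ n ih => rw [succ_nsmul]; exact pr_add_right ih h1

theorem pr_smul_right {φ : Module.Dual (ZMod p) V} {v : V} (h1 : Pr H φ v) (c : ZMod p) :
    Pr H φ (c • v) := by
  have := pr_nsmul_right h1 c.val
  rwa [← Nat.cast_smul_eq_nsmul (ZMod p), ZMod.natCast_zmod_val] at this

/-- Conjugation by an element of `H`. -/
theorem pr_conj_of_mem {φ : Module.Dual (ZMod p) V} {v : V} (h1 : Pr H φ v)
    {g : V ≃ₗ[ZMod p] V} (hg : g ∈ H) :
    Pr H (φ ∘ₗ (g.symm : V →ₗ[ZMod p] V)) (g v) := by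
  obtain ⟨a1, b1⟩ := h1
  have a3 : (φ ∘ₗ (g.symm : V →ₗ[ZMod p] V)) (g v) = 0 := by
    simp [a1]
  refine ⟨a3, ?_⟩
  have : LinearEquiv.transvection a3 = g * LinearEquiv.transvection a1 * g⁻¹ := by
    ext x
    rw [LinearEquiv.mul_apply, LinearEquiv.mul_apply, tv_apply, tv_apply]
    simp only [map_add, map_smul, LinearMap.comp_apply, LinearEquiv.coe_coe]
    rw [show g⁻¹ x = g.symm x from rfl, LinearEquiv.apply_symm_apply]
  rw [this]; exact H.mul_mem (H.mul_mem hg b1) (H.inv_mem hg)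

theorem comp_tv_symm {φ ψ : Module.Dual (ZMod p) V} {w : V} (h : ψ w = 0) :
    φ ∘ₗ ((LinearEquiv.transvection h).symm : V →ₗ[ZMod p] V) = φ - φ w • ψ := by
  ext x
  have : (LinearEquiv.transvection h).symm x = x - ψ x • w := tv_inv_apply h x
  simp only [LinearMap.comp_apply, LinearEquiv.coe_coe, this, map_sub, map_smul,
    LinearMap.sub_apply, LinearMap.smul_apply, smul_eq_mul]
  ring

theorem comp_tv {φ ψ : Module.Dual (ZMod p) V} {w : V} (h : ψ w = 0) :
    φ ∘ₗ ((LinearEquiv.transvection h) : V →ₗ[ZMod p] V) = φ + φ w • ψ := by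
  ext x
  simp only [LinearMap.comp_apply, LinearEquiv.coe_coe, tv_apply, map_add, map_smul,
    LinearMap.add_apply, LinearMap.smul_apply, smul_eq_mul]
  ring

theorem pr_conj {φ ψ : Module.Dual (ZMod p) V} {v w : V} (h1 : Pr H φ v) (h2 : Pr H ψ w) :
    Pr H (φ - φ w • ψ) (v + ψ v • w) := by
  have := pr_conj_of_mem h1 (h2.mem h2.zero)
  rwa [comp_tv_symm, tv_apply] at this

theorem pr_sys0 (H : Subgroup (V ≃ₗ[ZMod p] V)) : Sys0 (Pr H) where
  zero := fun _ _ h => h.zero
  zero_left := pr_zero_left H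
  zero_right := pr_zero_right H
  add_left := fun _ _ _ => pr_add_left
  add_right := fun _ _ _ => pr_add_right
  smul_left := fun c _ _ h => pr_smul_left h c
  smul_right := fun c _ _ h => pr_smul_right h c
  conj := fun _ _ _ _ => pr_conj

end Group

end Cfsg.Agent.Lib.Helper83.MclPair
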