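import Mathlib
import Cfsg.Prelude.Def_Solvable
import Cfsg.Agent.Lib.Helper83.MclStmt
import Cfsg.Agent.Lib.Helper83.MclPair

/-!
# S5075 glue, part 2: no isolated transvections, components, class systems
-/

set_option autoImplicit false

namespace Cfsg.Agent.Lib.Helper83.MclComp

open Cfsg.Agent.Lib.Helper83.MclStmt Cfsg.Agent.Lib.Helper83.MclPair

universe u

section Gen

variable {F : Type*} [Field F] {V : Type*} [AddCommGroup V] [Module F V]
  {Q : Module.Dual F V → V → Prop}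

theorem mem_ax {x : V} : x ∈ ax Q ↔ ∀ φ v, φ ≠ 0 → v ≠ 0 → Q φ v → φ x = 0 := by
  unfold ax
  simp only [Submodule.mem_iInf, LinearMap.mem_ker]
  exact ⟨fun h φ v h1 h2 h3 => h φ v ⟨h1, h2, h3⟩, fun h φ v h1 => h φ v h1.1 h1.2.1 h1.2.2⟩

theorem smul_mem_cen {φ : Module.Dual F V} {v : V} (h : Q φ v) (y : V) : φ y • v ∈ cen Q := by
  by_cases hφ : φ = 0
  · rw [hφ, LinearMap.zero_apply, zero_smul]; exact Submodule.zero_mem _
  by_cases hv : v = 0
  · rw [hv, smul_zero]; exact Submodule.zero_mem _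
  exact Submodule.smul_mem _ _ (Submodule.subset_span ⟨φ, hφ, hv, h⟩)

theorem smul_eq_zero_of_mem_ax {φ : Module.Dual F V} {v : V} (h : Q φ v) {x : V}
    (hx : x ∈ ax Q) : φ x • v = 0 := by
  by_cases hφ : φ = 0
  · rw [hφ, LinearMap.zero_apply, zero_smul]
  by_cases hv : v = 0
  · rw [hv, smul_zero]
  rw [mem_ax.1 hx φ v hφ hv h, zero_smul]

end Gen

variable {p : ℕ} [Fact p.Prime] {V : Type u} [AddCommGroup V] [Module (ZMod p) V]
variable {H : Subgroup (V ≃ₗ[ZMod p] V)}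

/-- Every non-trivial transvection pair of `H` has an opposite pair. -/
def NoIso (H : Subgroup (V ≃ₗ[ZMod p] V)) : Prop :=
  ∀ φ v, Pr H φ v → φ ≠ 0 → v ≠ 0 → ∃ ψ w, Pr H ψ w ∧ φ w ≠ 0 ∧ ψ v ≠ 0

theorem tv_conj (g : V ≃ₗ[ZMod p] V) {φ : Module.Dual (ZMod p) V} {v : V} (a1 : φ v = 0)
    (a3 : (φ ∘ₗ (g.symm : V →ₗ[ZMod p] V)) (g v) = 0) :
    g * LinearEquiv.transvection a1 * g⁻¹ = LinearEquiv.transvection a3 := by
  ext x
  rw [LinearEquiv.mul_apply, LinearEquiv.mul_apply, tv_apply, tv_apply]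
  simp only [map_add, map_smul, LinearMap.comp_apply, LinearEquiv.coe_coe]
  rw [show g⁻¹ x = g.symm x from rfl, LinearEquiv.apply_symm_apply]

theorem noIso [Finite V] (hOP : OP.{u}) (hOp : Cfsg.pCore p ↥H = ⊥) : NoIso H := by
  classical
  by_contra hcon
  let I : Set (Module.Dual (ZMod p) V × V) :=
    {q | q.1 ≠ 0 ∧ q.2 ≠ 0 ∧ Pr H q.1 q.2 ∧ ∀ ψ w, Pr H ψ w → q.1 w = 0 ∨ ψ q.2 = 0}
  have hIne : I.Nonempty := by
    unfold NoIso at hcon
    push Not at hcon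
    obtain ⟨φ, v, h1, h2, h3, h4⟩ := hcon
    refine ⟨(φ, v), h2, h3, h1, fun ψ w hψ => ?_⟩
    by_cases h : φ w = 0
    · exact Or.inl h
    · exact Or.inr (h4 ψ w hψ h)
  have S := pr_sys0 H
  have iso : ∀ φ v ψ w, (φ, v) ∈ I → (ψ, w) ∈ I → φ w ≠ 0 → (ψ, v) ∈ I := by
    rintro φ v ψ w ⟨hφ, hv, hP, hiso⟩ ⟨hψ, hw, hP', hiso'⟩ hφw
    have hψv : ψ v = 0 := (hiso ψ w hP').resolve_left hφw
    have hP'' : Pr H ψ v := S.rule_R φ v ψ w hP hP' hφw hψv
    refine ⟨hψ, hv, hP'', ?_⟩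
    intro χ x hχ
    by_contra hh
    push Not at hh
    have hφx : φ x = 0 := (hiso χ x hχ).resolve_right hh.2
    have hP3 : Pr H φ x := S.rule_R' φ v χ x hP hχ hφx hh.2
    rcases hiso' φ x hP3 with h | h
    · exact hh.1 h
    · exact hφw h
  haveI : Finite (Module.Dual (ZMod p) V) := DFunLike.finite _
  let n : Module.Dual (ZMod p) V × V → ℕ := fun q => Set.ncard {ψ | (ψ, q.2) ∈ I}
  obtain ⟨q₀, hq₀, hmax⟩ := Set.exists_max_image I n (Set.toFinite I) hIne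
  have hsink : ∀ q ∈ I, q.1 q₀.2 = 0 := by
    intro q hq
    by_contra hne
    have hsub : {ψ | (ψ, q₀.2) ∈ I} ⊂ {ψ | (ψ, q.2) ∈ I} := by
      refine ⟨fun ψ' hψ' => iso q.1 q.2 ψ' q₀.2 hq hψ' hne, fun hsup => ?_⟩
      have h1 : (q.1, q₀.2) ∈ I := hsup (show q.1 ∈ {ψ | (ψ, q.2) ∈ I} from hq)
      exact hne h1.2.2.1.zero
    have h2 := Set.ncard_lt_ncard hsub (Set.toFinite _)
    exact absurd (hmax q hq) (not_le.mpr h2)
  let Z : Submodule (ZMod p) V := ⨅ q ∈ I, LinearMap.ker q.1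
  have hZmem : ∀ x, x ∈ Z ↔ ∀ q ∈ I, q.1 x = 0 := by
    intro x
    simp only [Z, Submodule.mem_iInf, LinearMap.mem_ker]
  have hIconj : ∀ q ∈ I, ∀ g ∈ H, (q.1 ∘ₗ (g.symm : V →ₗ[ZMod p] V), g q.2) ∈ I := by
    rintro ⟨φ, v⟩ ⟨hφ, hv, hP, hiso⟩ g hg
    refine ⟨?_, ?_, pr_conj_of_mem hP hg, ?_⟩
    · intro h0
      apply hφ
      ext x
      have := LinearMap.congr_fun h0 (g x)
      simpa using this
    · simpa using hv
    · intro ψ w hψ
      have hP' := pr_conj_of_mem hψ (H.inv_mem hg)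
      rcases hiso _ _ hP' with h | h
      · exact Or.inl h
      · exact Or.inr h
  have hZinv : ∀ h ∈ H, ∀ x ∈ Z, h x ∈ Z := by
    intro h hh x hx
    rw [hZmem] at hx ⊢
    intro q hq
    exact hx _ (hIconj q hq h⁻¹ (H.inv_mem hh))
  have hv₀Z : q₀.2 ∈ Z := (hZmem _).2 hsink
  obtain ⟨hφ₀, hv₀, hP₀, hiso₀⟩ := hq₀
  have h0 := hP₀.zero
  have hg := hOP p V H hOp ⊥ Z
    (by
      intro h _ x hx
      rw [Submodule.mem_bot] at hx ⊢
      rw [hx, map_zero])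
    hZinv (LinearEquiv.transvection h0) (hP₀.mem h0)
    (fun x => by
      rw [tv_apply, add_sub_cancel_left]
      exact Z.smul_mem _ hv₀Z)
    (fun x hx => by
      rw [tv_apply, add_sub_cancel_left, (hZmem x).1 hx q₀ ⟨hφ₀, hv₀, hP₀, hiso₀⟩, zero_smul]
      exact Submodule.zero_mem _)
    (fun x hx => by
      rw [Submodule.mem_bot] at hx
      rw [hx, map_zero])
  apply hφ₀
  ext x
  have h1 := LinearEquiv.congr_fun hg x
  rw [tv_apply] at h1
  have h2 : q₀.1 x • q₀.2 = 0 := by simpa using h1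
  rcases smul_eq_zero.1 h2 with h | h
  · simpa using h
  · exact absurd h hv₀

/-- Opposite pairs. -/
def OppR (H : Subgroup (V ≃ₗ[ZMod p] V)) :
    Module.Dual (ZMod p) V × V → Module.Dual (ZMod p) V × V → Prop :=
  fun a b => Pr H a.1 a.2 ∧ Pr H b.1 b.2 ∧ a.1 b.2 ≠ 0 ∧ b.1 a.2 ≠ 0

/-- Connectedness in the graph of opposite pairs. -/
def Conn (H : Subgroup (V ≃ₗ[ZMod p] V)) :
    Module.Dual (ZMod p) V × V → Module.Dual (ZMod p) V × V → Prop :=
  Relation.ReflTransGen (OppR H)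

theorem oppR_symm {a b : Module.Dual (ZMod p) V × V} (h : OppR H a b) : OppR H b a :=
  ⟨h.2.1, h.1, h.2.2.2, h.2.2.1⟩

theorem conn_symm {a b : Module.Dual (ZMod p) V × V} (h : Conn H a b) : Conn H b a := by
  unfold Conn at h ⊢
  induction h with
  | refl => exact Relation.ReflTransGen.refl
  | tail _ hbc ih => exact Relation.ReflTransGen.head (oppR_symm hbc) ih

theorem conn_trans {a b c : Module.Dual (ZMod p) V × V} (h : Conn H a b) (h' : Conn H b c) :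
    Conn H a c := Relation.ReflTransGen.trans h h'

theorem conn_single {a b : Module.Dual (ZMod p) V × V} (h : OppR H a b) : Conn H a b :=
  Relation.ReflTransGen.single h

theorem conn_refl (a : Module.Dual (ZMod p) V × V) : Conn H a a := Relation.ReflTransGen.refl

/-- Two non-commuting pairs are connected. -/
theorem conn_of_ne (hN : NoIso H) {φ ψ : Module.Dual (ZMod p) V} {v w : V} (h1 : Pr H φ v)
    (h2 : Pr H ψ w) (hv : v ≠ 0) (hψ : ψ ≠ 0) (h3 : φ w ≠ 0) : Conn H (φ, v) (ψ, w) := by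
  have S := pr_sys0 H
  have hφ : φ ≠ 0 := by rintro rfl; exact h3 rfl
  have hw : w ≠ 0 := by rintro rfl; exact h3 (map_zero φ)
  by_cases hψv : ψ v = 0
  · have h4 : Pr H ψ v := S.rule_R φ v ψ w h1 h2 h3 hψv
    obtain ⟨χ, x, hχ, hψx, hχv⟩ := hN ψ v h4 hψ hv
    by_cases hφx : φ x = 0
    · have h5 : Pr H φ x := S.rule_R' φ v χ x h1 hχ hφx hχv
      obtain ⟨φ', v', hφ', hφv', hφ'v⟩ := hN φ v h1 hφ hv
      obtain ⟨t, ht⟩ : ∃ t : ZMod p, φ' (x + t • v) ≠ 0 := by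
        by_cases h : φ' x = 0
        · exact ⟨1, by rw [map_add, h, one_smul, zero_add]; exact hφ'v⟩
        · exact ⟨0, by rw [zero_smul, add_zero]; exact h⟩
      have h6 : Pr H φ (x + t • v) := S.add_right φ _ _ h5 (S.smul_right t φ v h1)
      have e1 : OppR H (φ, v) (φ', v') := ⟨h1, hφ', hφv', hφ'v⟩
      have e2 : OppR H (φ', v') (φ, x + t • v) := ⟨hφ', h6, ht, hφv'⟩
      have e3 : OppR H (φ, x + t • v) (ψ, w) := ⟨h6, h2, h3, by
        show ψ (x + t • v) ≠ 0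
        rw [map_add, map_smul, hψv, smul_zero, add_zero]; exact hψx⟩
      exact ((Relation.ReflTransGen.single e1).tail e2).tail e3
    · by_cases hχw : χ w = 0
      · have h5 : Pr H χ w := S.rule_R ψ w χ x h2 hχ hψx hχw
        obtain ⟨ψ', w', hψ', hψw', hψ'w⟩ := hN ψ w h2 hψ hw
        obtain ⟨t, ht⟩ : ∃ t : ZMod p, (χ + t • ψ) w' ≠ 0 := by
          by_cases h : χ w' = 0
          · exact ⟨1, by rw [LinearMap.add_apply, h, one_smul, zero_add]; exact hψw'⟩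
          · exact ⟨0, by rw [zero_smul, add_zero]; exact h⟩
        have h6 : Pr H (χ + t • ψ) w := S.add_left _ _ w h5 (S.smul_left t ψ w h2)
        have e1 : OppR H (φ, v) (χ + t • ψ, w) := ⟨h1, h6, h3, by
          show (χ + t • ψ) v ≠ 0
          rw [LinearMap.add_apply, LinearMap.smul_apply, hψv, smul_zero, add_zero]; exact hχv⟩
        have e2 : OppR H (χ + t • ψ, w) (ψ', w') := ⟨h6, hψ', ht, hψ'w⟩
        have e3 : OppR H (ψ', w') (ψ, w) := ⟨hψ', h2, hψ'w, hψw'⟩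
        exact ((Relation.ReflTransGen.single e1).tail e2).tail e3
      · have e1 : OppR H (φ, v) (χ, x) := ⟨h1, hχ, hφx, hχv⟩
        have e2 : OppR H (χ, x) (ψ, w) := ⟨hχ, h2, hχw, hψx⟩
        exact (Relation.ReflTransGen.single e1).tail e2
  · exact Relation.ReflTransGen.single ⟨h1, h2, h3, hψv⟩

/-- The class system of a pair `q₀`. -/
def Qc (H : Subgroup (V ≃ₗ[ZMod p] V)) (q₀ : Module.Dual (ZMod p) V × V)
    (φ : Module.Dual (ZMod p) V) (v : V) : Prop :=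
  Pr H φ v ∧ (φ = 0 ∨ v = 0 ∨ Conn H (φ, v) q₀)

theorem qc_of_opp {q₀ : Module.Dual (ZMod p) V × V} {φ ψ : Module.Dual (ZMod p) V} {v w : V}
    (h : OppR H (φ, v) (ψ, w)) (hq : Qc H q₀ ψ w) : Qc H q₀ φ v := by
  refine ⟨h.1, Or.inr (Or.inr ?_)⟩
  rcases hq.2 with h0 | h0 | h0
  · exact absurd (by rw [h0]; rfl) h.2.2.2
  · exact absurd (by rw [h0]; exact map_zero _) h.2.2.1
  · exact Relation.ReflTransGen.head h h0

theorem qc_conj (hN : NoIso H) {q₀ : Module.Dual (ZMod p) V × V}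
    {φ ψ : Module.Dual (ZMod p) V} {v w : V} (h1 : Qc H q₀ φ v) (h2 : Pr H ψ w) :
    Qc H q₀ (φ - φ w • ψ) (v + ψ v • w) := by
  have hP := pr_conj h1.1 h2
  by_cases hψ : ψ = 0
  · subst hψ
    rw [smul_zero, sub_zero, LinearMap.zero_apply, zero_smul, add_zero]; exact h1
  by_cases hw : w = 0
  · subst hw
    rw [map_zero, zero_smul, sub_zero, smul_zero, add_zero]; exact h1
  by_cases hc : φ w = 0 ∧ ψ v = 0
  · rw [hc.1, hc.2, zero_smul, zero_smul, sub_zero, add_zero]; exact h1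
  by_cases h0 : φ - φ w • ψ = 0
  · exact ⟨hP, Or.inl h0⟩
  by_cases hv0 : v + ψ v • w = 0
  · exact ⟨hP, Or.inr (Or.inl hv0)⟩
  refine ⟨hP, Or.inr (Or.inr ?_)⟩
  have hφ : φ ≠ 0 := by
    rintro rfl; apply h0; rw [LinearMap.zero_apply, zero_smul, sub_zero]
  have hv : v ≠ 0 := by
    rintro rfl; apply hv0; rw [map_zero, zero_smul, add_zero]
  have hcl : Conn H (φ, v) q₀ := (h1.2.resolve_left hφ).resolve_left hv
  have hψw := h2.zero
  have e1 : (φ - φ w • ψ) w = φ w := by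
    rw [LinearMap.sub_apply, LinearMap.smul_apply, hψw, smul_zero, sub_zero]
  have e2 : ψ (v + ψ v • w) = ψ v := by
    rw [map_add, map_smul, hψw, smul_zero, add_zero]
  by_cases hφw : φ w = 0
  · have hψv : ψ v ≠ 0 := fun h => hc ⟨hφw, h⟩
    have c1 : Conn H (ψ, w) (φ, v) := conn_of_ne hN h2 h1.1 hw hφ hψv
    have c2 : Conn H (ψ, w) (φ - φ w • ψ, v + ψ v • w) :=
      conn_of_ne hN h2 hP hw h0 (by rw [e2]; exact hψv)
    exact conn_trans (conn_symm c2) (conn_trans c1 hcl)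
  · have c1 : Conn H (φ, v) (ψ, w) := conn_of_ne hN h1.1 h2 hv hψ hφw
    have c2 : Conn H (φ - φ w • ψ, v + ψ v • w) (ψ, w) :=
      conn_of_ne hN hP h2 hv0 hψ (by rw [e1]; exact hφw)
    exact conn_trans c2 (conn_trans (conn_symm c1) hcl)

theorem qc_sys0 (hN : NoIso H) (q₀ : Module.Dual (ZMod p) V × V) : Sys0 (Qc H q₀) where
  zero := fun φ v h => h.1.zero
  zero_left := fun v => ⟨pr_zero_left H v, Or.inl rfl⟩
  zero_right := fun φ => ⟨pr_zero_right H φ, Or.inr (Or.inl rfl)⟩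
  add_left := by
    intro φ φ' v h1 h2
    have hP := pr_add_left h1.1 h2.1
    by_cases h0 : φ + φ' = 0
    · exact ⟨hP, Or.inl h0⟩
    by_cases hv : v = 0
    · exact ⟨hP, Or.inr (Or.inl hv)⟩
    obtain ⟨ψ, w, hψ, hw1, hw2⟩ := hN _ _ hP h0 hv
    by_cases hφw : φ w = 0
    · have hφ'w : φ' w ≠ 0 := by
        intro h; apply hw1; rw [LinearMap.add_apply, hφw, h, add_zero]
      exact qc_of_opp ⟨hP, hψ, hw1, hw2⟩ (qc_of_opp ⟨hψ, h2.1, hw2, hφ'w⟩ h2)
    · exact qc_of_opp ⟨hP, hψ, hw1, hw2⟩ (qc_of_opp ⟨hψ, h1.1, hw2, hφw⟩ h1)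
  add_right := by
    intro φ v v' h1 h2
    have hP := pr_add_right h1.1 h2.1
    by_cases h0 : φ = 0
    · exact ⟨hP, Or.inl h0⟩
    by_cases hv : v + v' = 0
    · exact ⟨hP, Or.inr (Or.inl hv)⟩
    obtain ⟨ψ, w, hψ, hw1, hw2⟩ := hN _ _ hP h0 hv
    by_cases hψv : ψ v = 0
    · have hψv' : ψ v' ≠ 0 := by
        intro h; apply hw2; rw [map_add, hψv, h, add_zero]
      exact qc_of_opp ⟨hP, hψ, hw1, hw2⟩ (qc_of_opp ⟨hψ, h2.1, hψv', hw1⟩ h2)
    · exact qc_of_opp ⟨hP, hψ, hw1, hw2⟩ (qc_of_opp ⟨hψ, h1.1, hψv, hw1⟩ h1)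
  smul_left := by
    intro c φ v h1
    have hP := pr_smul_left h1.1 c
    by_cases h0 : c • φ = 0
    · exact ⟨hP, Or.inl h0⟩
    by_cases hv : v = 0
    · exact ⟨hP, Or.inr (Or.inl hv)⟩
    obtain ⟨ψ, w, hψ, hw1, hw2⟩ := hN _ _ hP h0 hv
    have hφw : φ w ≠ 0 := by
      intro h; apply hw1; rw [LinearMap.smul_apply, h, smul_zero]
    exact qc_of_opp ⟨hP, hψ, hw1, hw2⟩ (qc_of_opp ⟨hψ, h1.1, hw2, hφw⟩ h1)
  smul_right := by
    intro c φ v h1
    have hP := pr_smul_right h1.1 c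
    by_cases h0 : φ = 0
    · exact ⟨hP, Or.inl h0⟩
    by_cases hv : c • v = 0
    · exact ⟨hP, Or.inr (Or.inl hv)⟩
    obtain ⟨ψ, w, hψ, hw1, hw2⟩ := hN _ _ hP h0 hv
    have hψv : ψ v ≠ 0 := by
      intro h; apply hw2; rw [map_smul, h, smul_zero]
    exact qc_of_opp ⟨hP, hψ, hw1, hw2⟩ (qc_of_opp ⟨hψ, h1.1, hψv, hw1⟩ h1)
  conj := fun φ v ψ w h1 h2 => qc_conj hN h1 h2.1

theorem upgrade {q₀ a b : Module.Dual (ZMod p) V × V} (ha : Conn H a q₀) (hab : Conn H a b) :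
    Relation.ReflTransGen (fun a b : Module.Dual (ZMod p) V × V =>
      Qc H q₀ a.1 a.2 ∧ Qc H q₀ b.1 b.2 ∧ a.1 b.2 ≠ 0 ∧ b.1 a.2 ≠ 0) a b := by
  unfold Conn at hab
  induction hab with
  | refl => exact Relation.ReflTransGen.refl
  | tail hab' hbc ih =>
    refine ih.tail ⟨⟨hbc.1, Or.inr (Or.inr (conn_trans (conn_symm hab') ha))⟩,
      ⟨hbc.2.1, Or.inr (Or.inr (conn_trans (conn_symm (Relation.ReflTransGen.tail hab' hbc)) ha))⟩,
      hbc.2.2.1, hbc.2.2.2⟩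

theorem qc_sys (hN : NoIso H) (q₀ : Module.Dual (ZMod p) V × V) : Sys (Qc H q₀) := by
  have S := qc_sys0 hN q₀
  refine { zero := S.zero, zero_left := S.zero_left, zero_right := S.zero_right,
           add_left := S.add_left, add_right := S.add_right, smul_left := S.smul_left,
           smul_right := S.smul_right, conj := S.conj, rule_R := S.rule_R, rule_R' := S.rule_R',
           rule_hyp := S.rule_hyp, opp := ?_, conn := ?_ }
  · intro φ v h hφ hv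
    obtain ⟨ψ, w, hψ, h1, h2⟩ := hN φ v h.1 hφ hv
    exact ⟨ψ, w, qc_of_opp ⟨hψ, h.1, h2, h1⟩ h, h1, h2⟩
  · intro φ v ψ w h1 hφ hv h2 hψ hw
    have c1 : Conn H (φ, v) q₀ := (h1.2.resolve_left hφ).resolve_left hv
    have c2 : Conn H (ψ, w) q₀ := (h2.2.resolve_left hψ).resolve_left hw
    exact upgrade c1 (conn_trans c1 (conn_symm c2))

theorem qc_congr {q q' : Module.Dual (ZMod p) V × V} (h : Conn H q q') : Qc H q = Qc H q' := by
  funext φ v
  apply propext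
  constructor
  · rintro ⟨hP, h0 | h0 | h0⟩
    · exact ⟨hP, Or.inl h0⟩
    · exact ⟨hP, Or.inr (Or.inl h0)⟩
    · exact ⟨hP, Or.inr (Or.inr (conn_trans h0 h))⟩
  · rintro ⟨hP, h0 | h0 | h0⟩
    · exact ⟨hP, Or.inl h0⟩
    · exact ⟨hP, Or.inr (Or.inl h0)⟩
    · exact ⟨hP, Or.inr (Or.inr (conn_trans h0 (conn_symm h)))⟩

theorem cen_le_ax (hN : NoIso H) {q q' : Module.Dual (ZMod p) V × V} (h : ¬ Conn H q q') :
    cen (Qc H q') ≤ ax (Qc H q) := by
  apply Submodule.span_le.2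
  rintro v' ⟨φ', hφ', hv', hq'⟩
  rw [SetLike.mem_coe, mem_ax]
  intro φ v hφ hv hq
  by_contra hne
  apply h
  have c1 : Conn H (φ, v) q := (hq.2.resolve_left hφ).resolve_left hv
  have c2 : Conn H (φ', v') q' := (hq'.2.resolve_left hφ').resolve_left hv'
  have c3 : Conn H (φ, v) (φ', v') := conn_of_ne hN hq.1 hq'.1 hv hφ' hne
  exact conn_trans (conn_trans (conn_symm c1) c3) c2

end Cfsg.Agent.Lib.Helper83.MclComp
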