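import Mathlib
import Cfsg.Prelude.Def_Solvable
import Cfsg.Agent.Lib.Helper83.MclStmt
import Cfsg.Agent.Lib.Helper83.MclPair
import Cfsg.Agent.Lib.Helper83.MclComp

/-!
# S5075 glue, part 3: invariance, the component groups, and the final assembly from the pieces
-/

set_option autoImplicit false

namespace Cfsg.Agent.Lib.Helper83.MclMain

open Cfsg.Agent.Lib.Helper83.MclStmt Cfsg.Agent.Lib.Helper83.MclPair
  Cfsg.Agent.Lib.Helper83.MclComp

universe u

variable {p : ℕ} [Fact p.Prime] {V : Type u} [AddCommGroup V] [Module (ZMod p) V]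
variable {H : Subgroup (V ≃ₗ[ZMod p] V)}

/-- `g` maps the class system of `q₀` into itself. -/
def QInv (H : Subgroup (V ≃ₗ[ZMod p] V)) (q₀ : Module.Dual (ZMod p) V × V)
    (g : V ≃ₗ[ZMod p] V) : Prop :=
  ∀ φ v, Qc H q₀ φ v → Qc H q₀ (φ ∘ₗ (g.symm : V →ₗ[ZMod p] V)) (g v)

theorem qinv_tv (hN : NoIso H) (q₀ : Module.Dual (ZMod p) V × V)
    {ψ : Module.Dual (ZMod p) V} {w : V} (h : ψ w = 0)
    (hm : LinearEquiv.transvection h ∈ H) :
    QInv H q₀ (LinearEquiv.transvection h) ∧ QInv H q₀ (LinearEquiv.transvection h)⁻¹ := by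
  have hP : Pr H ψ w := ⟨h, hm⟩
  constructor
  · intro φ v hq
    have := qc_conj hN hq hP
    rwa [comp_tv_symm, tv_apply]
  · intro φ v hq
    have hP' : Pr H (-ψ) w := by
      have := pr_smul_left hP (-1 : ZMod p)
      have e : (-1 : ZMod p) • ψ = -ψ := by module
      rwa [e] at this
    have := qc_conj hN hq hP'
    have e1 : φ ∘ₗ (((LinearEquiv.transvection h)⁻¹).symm : V →ₗ[ZMod p] V) = φ - φ w • -ψ := by
      rw [show ((LinearEquiv.transvection h)⁻¹).symm = LinearEquiv.transvection h from rfl,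
        comp_tv]
      simp
    have e2 : (LinearEquiv.transvection h)⁻¹ v = v + (-ψ) v • w := by
      rw [tv_inv_apply]; simp [sub_eq_add_neg]
    rw [e1, e2]; exact this

theorem qinv_one (q₀ : Module.Dual (ZMod p) V × V) : QInv H q₀ 1 := by
  intro φ v hq
  exact hq

theorem qinv_mul (q₀ : Module.Dual (ZMod p) V × V) {x y : V ≃ₗ[ZMod p] V}
    (hx : QInv H q₀ x) (hy : QInv H q₀ y) : QInv H q₀ (x * y) := by
  intro φ v hq
  exact hx _ _ (hy _ _ hq)

theorem qinv_all (hN : NoIso H) (q₀ : Module.Dual (ZMod p) V × V)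
    (T : Set (V ≃ₗ[ZMod p] V)) (hHT : H = Subgroup.closure T)
    (hT : ∀ t ∈ T, ∃ (φ : Module.Dual (ZMod p) V) (v : V) (h : φ v = 0),
      t = LinearEquiv.transvection h) :
    ∀ g ∈ H, QInv H q₀ g ∧ QInv H q₀ g⁻¹ := by
  intro g hg
  rw [hHT] at hg
  induction hg using Subgroup.closure_induction with
  | mem t ht =>
    obtain ⟨ψ, w, h, rfl⟩ := hT t ht
    exact qinv_tv hN q₀ h (by rw [hHT]; exact Subgroup.subset_closure ht)
  | one => exact ⟨qinv_one q₀, by rw [inv_one]; exact qinv_one q₀⟩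
  | mul x y _ _ ihx ihy =>
    exact ⟨qinv_mul q₀ ihx.1 ihy.1, by rw [mul_inv_rev]; exact qinv_mul q₀ ihy.2 ihx.2⟩
  | inv x _ ih => exact ⟨ih.2, by rw [inv_inv]; exact ih.1⟩

theorem cen_inv {q₀ : Module.Dual (ZMod p) V × V} {g : V ≃ₗ[ZMod p] V} (hg : QInv H q₀ g) :
    ∀ x ∈ cen (Qc H q₀), g x ∈ cen (Qc H q₀) := by
  intro x hx
  have : cen (Qc H q₀) ≤ Submodule.comap (g : V →ₗ[ZMod p] V) (cen (Qc H q₀)) := by
    apply Submodule.span_le.2
    rintro v ⟨φ, hφ, hv, hq⟩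
    show g v ∈ cen (Qc H q₀)
    refine Submodule.subset_span ⟨φ ∘ₗ (g.symm : V →ₗ[ZMod p] V), ?_, ?_, hg φ v hq⟩
    · intro h0
      apply hφ
      ext y
      have := LinearMap.congr_fun h0 (g y)
      simpa using this
    · simpa using hv
  exact this hx

theorem ax_inv {q₀ : Module.Dual (ZMod p) V × V} {g : V ≃ₗ[ZMod p] V} (hg : QInv H q₀ g⁻¹) :
    ∀ x ∈ ax (Qc H q₀), g x ∈ ax (Qc H q₀) := by
  intro x hx
  rw [mem_ax] at hx ⊢
  intro φ v hφ hv hq
  have h1 := hg φ v hq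
  have h2 := hx _ _ ?_ ?_ h1
  · exact h2
  · intro h0
    apply hφ
    ext y
    have := LinearMap.congr_fun h0 (g⁻¹ y)
    have e : (g⁻¹).symm (g⁻¹ y) = y := LinearEquiv.symm_apply_apply g⁻¹ y
    rw [LinearMap.comp_apply, LinearEquiv.coe_coe, e] at this
    simpa using this
  · intro h0
    apply hv
    have e : g (g⁻¹ v) = v := LinearEquiv.apply_symm_apply g v
    rw [← e, h0, map_zero]

/-- The flag hypothesis of `SPCORE` for class systems, from `OP`. -/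
theorem qc_flag (hOP : OP.{u}) (hOp : Cfsg.pCore p ↥H = ⊥) {q₀ : Module.Dual (ZMod p) V × V}
    (hinv : ∀ g ∈ H, QInv H q₀ g ∧ QInv H q₀ g⁻¹) :
    ∀ φ v φ' v', Qc H q₀ φ v → Qc H q₀ φ' v' →
      (∀ x ∈ cen (Qc H q₀), φ x • v - φ' x • v' ∈ ax (Qc H q₀)) → ∀ x, φ x • v = φ' x • v' := by
  intro φ v φ' v' hq hq' hyp
  have h0 := hq.1.zero
  have h0' := hq'.1.zero
  have ht := hq.1.mem h0
  have ht' := hq'.1.mem h0'
  have hcen : ∀ h ∈ H, ∀ x ∈ cen (Qc H q₀), h x ∈ cen (Qc H q₀) :=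
    fun h hh => cen_inv (hinv h hh).1
  have hax : ∀ h ∈ H, ∀ x ∈ ax (Qc H q₀), h x ∈ ax (Qc H q₀) :=
    fun h hh => ax_inv (hinv h hh).2
  have hg : (LinearEquiv.transvection h0')⁻¹ * LinearEquiv.transvection h0 ∈ H :=
    H.mul_mem (H.inv_mem ht') ht
  have key := hOP p V H hOp (cen (Qc H q₀) ⊓ ax (Qc H q₀)) (cen (Qc H q₀))
    (fun h hh x hx => ⟨hcen h hh x hx.1, hax h hh x hx.2⟩) hcen
    ((LinearEquiv.transvection h0')⁻¹ * LinearEquiv.transvection h0) hg ?_ ?_ ?_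
  · have e : LinearEquiv.transvection h0 = LinearEquiv.transvection h0' := by
      calc LinearEquiv.transvection h0
          = LinearEquiv.transvection h0' *
              ((LinearEquiv.transvection h0')⁻¹ * LinearEquiv.transvection h0) := by group
        _ = LinearEquiv.transvection h0' := by rw [key, mul_one]
    intro x
    have := LinearEquiv.congr_fun e x
    rw [tv_apply, tv_apply] at this
    exact add_left_cancel this
  · intro x
    have e : ((LinearEquiv.transvection h0')⁻¹ * LinearEquiv.transvection h0) x - x =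
        ((LinearEquiv.transvection h0')⁻¹ (LinearEquiv.transvection h0 x) -
          LinearEquiv.transvection h0 x) + (LinearEquiv.transvection h0 x - x) := by
      rw [LinearEquiv.mul_apply]; abel
    rw [e]
    refine Submodule.add_mem _ ?_ ?_
    · rw [tv_inv_apply, sub_sub_cancel_left]
      exact Submodule.neg_mem _ (smul_mem_cen hq' _)
    · rw [tv_apply, add_sub_cancel_left]
      exact smul_mem_cen hq _
  · intro x hx
    have hz : φ x • v - φ' x • v' ∈ cen (Qc H q₀) ⊓ ax (Qc H q₀) :=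
      ⟨Submodule.sub_mem _ (smul_mem_cen hq x) (smul_mem_cen hq' x), hyp x hx⟩
    have e : ((LinearEquiv.transvection h0')⁻¹ * LinearEquiv.transvection h0) x - x =
        (LinearEquiv.transvection h0')⁻¹ (φ x • v - φ' x • v') := by
      have e1 : LinearEquiv.transvection h0 x =
          LinearEquiv.transvection h0' x + (φ x • v - φ' x • v') := by
        rw [tv_apply, tv_apply]; abel
      have e2 : (LinearEquiv.transvection h0')⁻¹ (LinearEquiv.transvection h0' x) = x :=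
        LinearEquiv.symm_apply_apply _ x
      rw [LinearEquiv.mul_apply, e1, map_add, e2]
      abel
    rw [e]
    exact ⟨hcen _ (H.inv_mem ht') _ hz.1, hax _ (H.inv_mem ht') _ hz.2⟩
  · intro x hx
    have e1 : LinearEquiv.transvection h0 x = x := by
      rw [tv_apply, smul_eq_zero_of_mem_ax hq hx.2, add_zero]
    rw [LinearEquiv.mul_apply, e1, tv_inv_apply, smul_eq_zero_of_mem_ax hq' hx.2, sub_zero]

/-- The component group of the class of `q₀`. -/
def Kc (H : Subgroup (V ≃ₗ[ZMod p] V)) (q₀ : Module.Dual (ZMod p) V × V) :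
    Subgroup (V ≃ₗ[ZMod p] V) :=
  Subgroup.closure {t | ∃ (φ : Module.Dual (ZMod p) V) (v : V) (h : φ v = 0),
    Qc H q₀ φ v ∧ t = LinearEquiv.transvection h}

theorem kc_le (q₀ : Module.Dual (ZMod p) V × V) : Kc H q₀ ≤ H := by
  apply (Subgroup.closure_le _).2
  rintro t ⟨φ, v, h, hq, rfl⟩
  exact hq.1.mem h

theorem kc_normal {q₀ : Module.Dual (ZMod p) V × V}
    (hinv : ∀ g ∈ H, QInv H q₀ g ∧ QInv H q₀ g⁻¹) :
    ∀ h ∈ H, ∀ k ∈ Kc H q₀, h * k * h⁻¹ ∈ Kc H q₀ := by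
  intro h hh k hk
  unfold Kc at hk ⊢
  induction hk using Subgroup.closure_induction with
  | mem t ht =>
    obtain ⟨φ, v, h0, hq, rfl⟩ := ht
    have hq' := (hinv h hh).1 φ v hq
    have h0' := hq'.1.zero
    rw [tv_conj h h0 h0']
    exact Subgroup.subset_closure ⟨_, _, h0', hq', rfl⟩
  | one => rw [mul_one, mul_inv_cancel]; exact Subgroup.one_mem _
  | mul x y _ _ ihx ihy =>
    have : h * (x * y) * h⁻¹ = (h * x * h⁻¹) * (h * y * h⁻¹) := by group
    rw [this]; exact Subgroup.mul_mem _ ihx ihy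
  | inv x _ ih =>
    have : h * x⁻¹ * h⁻¹ = (h * x * h⁻¹)⁻¹ := by group
    rw [this]; exact Subgroup.inv_mem _ ih

theorem kc_fix {q₀ : Module.Dual (ZMod p) V × V} :
    ∀ k ∈ Kc H q₀, ∀ x ∈ ax (Qc H q₀), k x = x := by
  intro k hk x hx
  unfold Kc at hk
  induction hk using Subgroup.closure_induction with
  | mem t ht =>
    obtain ⟨φ, v, h0, hq, rfl⟩ := ht
    rw [tv_apply, smul_eq_zero_of_mem_ax hq hx, add_zero]
  | one => rfl
  | mul a b _ _ iha ihb => rw [LinearEquiv.mul_apply, ihb, iha]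
  | inv a _ ih =>
    have : a⁻¹ (a x) = x := LinearEquiv.symm_apply_apply a x
    rw [ih] at this; exact this

theorem kc_pres {q₀ : Module.Dual (ZMod p) V × V}
    (hinv : ∀ g ∈ H, QInv H q₀ g ∧ QInv H q₀ g⁻¹) :
    ∀ k ∈ Kc H q₀, ∀ x ∈ cen (Qc H q₀), k x ∈ cen (Qc H q₀) :=
  fun k hk => cen_inv (hinv k (kc_le q₀ hk)).1

theorem kc_congr {q q' : Module.Dual (ZMod p) V × V} (h : Conn H q q') : Kc H q = Kc H q' := by
  unfold Kc; rw [qc_congr h]

theorem two_ne_zero_of_odd (hp : Odd p) : (2 : ZMod p) ≠ 0 := by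
  intro h
  have h' : ((2 : ℕ) : ZMod p) = 0 := by exact_mod_cast h
  rw [ZMod.natCast_eq_zero_iff] at h'
  have hp2 : p = 2 := (Nat.prime_dvd_prime_iff_eq Fact.out Nat.prime_two).1 h'
  subst hp2
  exact absurd hp (by decide)

theorem tv_eq_one_left {v : V} (h : (0 : Module.Dual (ZMod p) V) v = 0) :
    LinearEquiv.transvection h = 1 := by
  ext x; simp

theorem tv_eq_one_right {φ : Module.Dual (ZMod p) V} (h : φ (0 : V) = 0) :
    LinearEquiv.transvection h = 1 := by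
  ext x; simp

/-- Each class gives a component of type `SL` or `Sp`. -/
theorem class_main [Finite V] (hp : Odd p) (hOP : OP.{u}) (hSLG : SLG.{0, u})
    (hLIN : LIN.{0, u, u}) (hSLC : SLC.{0, u}) (hSPC : SPC.{0, u}) (hSLCORE : SLCORE.{0, u})
    (hSPCORE : SPCORE.{0, u}) (hOp : Cfsg.pCore p ↥H = ⊥) (hN : NoIso H)
    (q₀ : Module.Dual (ZMod p) V × V) (hinv : ∀ g ∈ H, QInv H q₀ g ∧ QInv H q₀ g⁻¹) :
    IsCompl (cen (Qc H q₀)) (ax (Qc H q₀)) ∧
    ∃ ρ : ↥(Kc H q₀) →* (↥(cen (Qc H q₀)) ≃ₗ[ZMod p] ↥(cen (Qc H q₀))),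
      (∀ (h : ↥(Kc H q₀)) (v : ↥(cen (Qc H q₀))),
        ((ρ h v : ↥(cen (Qc H q₀))) : V) = (h : V ≃ₗ[ZMod p] V) (v : V)) ∧
      ((ρ.range : Set (↥(cen (Qc H q₀)) ≃ₗ[ZMod p] ↥(cen (Qc H q₀)))) =
          {f : ↥(cen (Qc H q₀)) ≃ₗ[ZMod p] ↥(cen (Qc H q₀)) |
            LinearMap.det (f : ↥(cen (Qc H q₀)) →ₗ[ZMod p] ↥(cen (Qc H q₀))) = 1} ∨
        ∃ B : LinearMap.BilinForm (ZMod p) ↥(cen (Qc H q₀)), B.IsAlt ∧ B.Nondegenerate ∧
          (ρ.range : Set (↥(cen (Qc H q₀)) ≃ₗ[ZMod p] ↥(cen (Qc H q₀)))) =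
            {f : ↥(cen (Qc H q₀)) ≃ₗ[ZMod p] ↥(cen (Qc H q₀)) | ∀ x y, B (f x) (f y) = B x y}) := by
  have : Module.Finite (ZMod p) V := Module.Finite.of_finite
  have h2 : (2 : ZMod p) ≠ 0 := two_ne_zero_of_odd hp
  have hS := qc_sys hN q₀
  by_cases hcase : ∃ v φ₁ φ₂, v ≠ 0 ∧ Qc H q₀ φ₁ v ∧ Qc H q₀ φ₂ v ∧
      LinearIndependent (ZMod p) ![φ₁, φ₂]
  · obtain ⟨hcompl, hchar⟩ := hSLCORE (ZMod p) V (Qc H q₀) hS h2 hcase
    have heq : Kc H q₀ = Subgroup.closure {t | ∃ (φ : Module.Dual (ZMod p) V) (v : V)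
        (h : φ v = 0), v ∈ cen (Qc H q₀) ∧ (∀ x ∈ ax (Qc H q₀), φ x = 0) ∧
        t = LinearEquiv.transvection h} := by
      apply le_antisymm
      · apply (Subgroup.closure_le _).2
        rintro t ⟨φ, v, h, hq, rfl⟩
        rcases (hchar φ v).1 hq with h1 | h1 | h1
        · subst h1
          rw [tv_eq_one_left h]; exact Subgroup.one_mem _
        · subst h1
          rw [tv_eq_one_right h]; exact Subgroup.one_mem _
        · exact Subgroup.subset_closure ⟨φ, v, h, h1.1, h1.2.1, rfl⟩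
      · apply (Subgroup.closure_le _).2
        rintro t ⟨φ, v, h, hv, hφ, rfl⟩
        exact Subgroup.subset_closure
          ⟨φ, v, h, (hchar φ v).2 (Or.inr (Or.inr ⟨hv, hφ, h⟩)), rfl⟩
    obtain ⟨ρ, h1, h2'⟩ :=
      hSLC hSLG (ZMod p) V (cen (Qc H q₀)) (ax (Qc H q₀)) hcompl (Kc H q₀) heq
    exact ⟨hcompl, ρ, h1, Or.inl h2'⟩
  · have hD : ∀ v φ₁ φ₂, v ≠ 0 → φ₁ ≠ 0 → Qc H q₀ φ₁ v → Qc H q₀ φ₂ v →
        ∃ c : ZMod p, φ₂ = c • φ₁ := by
      intro v φ₁ φ₂ hv hφ₁ hq1 hq2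
      by_contra hcon
      apply hcase
      refine ⟨v, φ₁, φ₂, hv, hq1, hq2, ?_⟩
      rw [LinearIndependent.pair_iff' hφ₁]
      intro a ha
      exact hcon ⟨a, ha.symm⟩
    obtain ⟨β, hcompl, hβ1, hβ2, hβ3, hchar⟩ :=
      hSPCORE hLIN (ZMod p) V (Qc H q₀) hS h2 hD (qc_flag hOP hOp hinv)
    have heq : Kc H q₀ = Subgroup.closure {t | ∃ (x : V) (c : ZMod p)
        (h : (c • β x) x = 0), x ∈ cen (Qc H q₀) ∧ t = LinearEquiv.transvection h} := by
      apply le_antisymm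
      · apply (Subgroup.closure_le _).2
        rintro t ⟨φ, v, h, hq, rfl⟩
        rcases (hchar φ v).1 hq with h1 | h1 | h1
        · subst h1
          rw [tv_eq_one_left h]; exact Subgroup.one_mem _
        · subst h1
          rw [tv_eq_one_right h]; exact Subgroup.one_mem _
        · obtain ⟨hv, c, rfl⟩ := h1
          exact Subgroup.subset_closure ⟨v, c, h, hv, rfl⟩
      · apply (Subgroup.closure_le _).2
        rintro t ⟨x, c, h, hx, rfl⟩
        exact Subgroup.subset_closure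
          ⟨c • β x, x, h, (hchar _ _).2 (Or.inr (Or.inr ⟨hx, c, rfl⟩)), rfl⟩
    obtain ⟨ρ, h1, B, hB1, hB2, hB3⟩ :=
      hSPC (ZMod p) V (cen (Qc H q₀)) (ax (Qc H q₀)) hcompl β hβ1 hβ2 hβ3 (Kc H q₀) heq
    exact ⟨hcompl, ρ, h1, Or.inr ⟨B, hB1, hB2, hB3⟩⟩

/-- S5075 from the nine pieces. -/
theorem main_of_pieces (hTV : TV.{u}) (hSLG : SLG.{0, u}) (hLIN : LIN.{0, u, u}) (hOP : OP.{u})
    (hSLC : SLC.{0, u}) (hSPC : SPC.{0, u}) (hSLCORE : SLCORE.{0, u}) (hSPCORE : SPCORE.{0, u})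
    (hASM : ASM.{0, u, u}) [Finite V] (hp : Odd p) (H : Subgroup (V ≃ₗ[ZMod p] V))
    (T : Set (V ≃ₗ[ZMod p] V)) (hHT : H = Subgroup.closure T)
    (hT : ∀ t ∈ T, orderOf t = p ∧
      Module.finrank (ZMod p) ↥(LinearMap.ker ((t : V →ₗ[ZMod p] V) - LinearMap.id)) + 1 =
        Module.finrank (ZMod p) V)
    (hOp : Cfsg.pCore p ↥H = ⊥) :
    ∃ (n : ℕ) (W : Fin (n + 1) → Submodule (ZMod p) V) (K : Fin n → Subgroup (V ≃ₗ[ZMod p] V)),
      1 ≤ n ∧ DirectSum.IsInternal W ∧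
      (∀ h ∈ H, ∀ i, (W i).map (h : V →ₗ[ZMod p] V) = W i) ∧
      (∀ j, K j ≤ H ∧ ((K j).subgroupOf H).Normal) ∧ ⨆ j, K j = H ∧
      (∀ j, K j ⊓ (⨆ j' ∈ {j' : Fin n | j' ≠ j}, K j') = ⊥) ∧
      (∀ j j', j ≠ j' → ∀ a ∈ K j, ∀ b ∈ K j', a * b = b * a) ∧
      (∀ j, ∀ h ∈ K j, ∀ i : Fin (n + 1), i ≠ j.succ → ∀ v ∈ W i, h v = v) ∧
      (∀ j, ∃ ρ : ↥(K j) →* (↥(W j.succ) ≃ₗ[ZMod p] ↥(W j.succ)),
        (∀ (h : ↥(K j)) (v : ↥(W j.succ)), ((ρ h v : ↥(W j.succ)) : V) = (h : V ≃ₗ[ZMod p] V) (v : V)) ∧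
        ((ρ.range : Set (↥(W j.succ) ≃ₗ[ZMod p] ↥(W j.succ))) =
            {f : ↥(W j.succ) ≃ₗ[ZMod p] ↥(W j.succ) | LinearMap.det (f : ↥(W j.succ) →ₗ[ZMod p] ↥(W j.succ)) = 1} ∨
          ∃ B : LinearMap.BilinForm (ZMod p) ↥(W j.succ), B.IsAlt ∧ B.Nondegenerate ∧
            (ρ.range : Set (↥(W j.succ) ≃ₗ[ZMod p] ↥(W j.succ))) = {f : ↥(W j.succ) ≃ₗ[ZMod p] ↥(W j.succ) | ∀ x y, B (f x) (f y) = B x y})) := by
  classical
  have : Module.Finite (ZMod p) V := Module.Finite.of_finite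
  have hT' : ∀ t ∈ T, ∃ (φ : Module.Dual (ZMod p) V) (v : V) (h : φ v = 0), φ ≠ 0 ∧ v ≠ 0 ∧
      t = LinearEquiv.transvection h := fun t ht => hTV p V t (hT t ht).1 (hT t ht).2
  have hN : NoIso H := noIso hOP hOp
  have hinv : ∀ q₀ : Module.Dual (ZMod p) V × V, ∀ g ∈ H, QInv H q₀ g ∧ QInv H q₀ g⁻¹ :=
    fun q₀ => qinv_all hN q₀ T hHT (fun t ht => by
      obtain ⟨φ, v, h, -, -, e⟩ := hT' t ht
      exact ⟨φ, v, h, e⟩)
  -- the index set: the component groups of the non-trivial pairs, plus a dummy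
  let Pt := {q : Module.Dual (ZMod p) V × V // q.1 ≠ 0 ∧ q.2 ≠ 0 ∧ Pr H q.1 q.2}
  let S : Set (Subgroup (V ≃ₗ[ZMod p] V)) := Set.range (fun q : Pt => Kc H q.1)
  have : Finite (Module.Dual (ZMod p) V) := DFunLike.finite _
  have : Finite Pt := Subtype.finite
  have : Finite ↥S := (Set.finite_range _).to_subtype
  let rep : ↥S → Module.Dual (ZMod p) V × V := fun k => (Classical.choose k.2).1
  have hrep : ∀ k : ↥S, Kc H (rep k) = k.1 := fun k => Classical.choose_spec k.2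
  let W : Option ↥S → Submodule (ZMod p) V := fun i => i.elim ⊥ (fun k => cen (Qc H (rep k)))
  let C : Option ↥S → Submodule (ZMod p) V := fun i => i.elim ⊤ (fun k => ax (Qc H (rep k)))
  let K : Option ↥S → Subgroup (V ≃ₗ[ZMod p] V) := fun i => i.elim ⊥ (fun k => Kc H (rep k))
  have hcm := fun k : ↥S => class_main hp hOP hSLG hLIN hSLC hSPC hSLCORE hSPCORE hOp hN (rep k)
    (hinv (rep k))
  refine hASM (ZMod p) V H (Option ↥S) W C K ?_ ?_ ?_ ?_ ?_ ?_ ?_ ?_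
  · rintro (_ | k)
    · exact isCompl_bot_top
    · exact (hcm k).1
  · rintro (_ | k) (_ | k') hne
    · exact absurd rfl hne
    · exact le_top
    · exact bot_le
    · show cen (Qc H (rep k')) ≤ ax (Qc H (rep k))
      apply cen_le_ax hN
      intro hc
      apply hne
      have := kc_congr hc
      rw [hrep, hrep] at this
      exact congrArg some (Subtype.ext this)
  · rintro (_ | k)
    · exact bot_le
    · exact kc_le _
  · rintro (_ | k) h hh x hx
    · have hx1 : x = 1 := Subgroup.mem_bot.1 hx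
      subst hx1
      rw [mul_one, mul_inv_cancel]
      exact Subgroup.one_mem _
    · exact kc_normal (hinv _) h hh x hx
  · apply le_antisymm
    · apply iSup_le
      rintro (_ | k)
      · exact bot_le
      · exact kc_le _
    · have hle : Subgroup.closure T ≤ ⨆ i, K i := by
        apply (Subgroup.closure_le _).2
        intro t ht
        obtain ⟨φ, v, h, hφ, hv, rfl⟩ := hT' t ht
        have htH : LinearEquiv.transvection h ∈ H := by
          rw [hHT]; exact Subgroup.subset_closure ht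
        let q : Pt := ⟨(φ, v), hφ, hv, ⟨h, htH⟩⟩
        let k : ↥S := ⟨Kc H (φ, v), ⟨q, rfl⟩⟩
        have hk : Kc H (rep k) = Kc H (φ, v) := hrep k
        have hmem : LinearEquiv.transvection h ∈ Kc H (φ, v) :=
          Subgroup.subset_closure ⟨φ, v, h, ⟨⟨h, htH⟩, Or.inr (Or.inr (conn_refl _))⟩, rfl⟩
        have hmem' : LinearEquiv.transvection h ∈ K (some k) := by
          show LinearEquiv.transvection h ∈ Kc H (rep k)
          rw [hk]; exact hmem
        exact (le_iSup K (some k)) hmem'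
      exact hHT.le.trans hle
  · rintro (_ | k) x hx y hy
    · have hx1 : x = 1 := Subgroup.mem_bot.1 hx
      subst hx1
      rfl
    · exact kc_fix x hx y hy
  · rintro (_ | k) x hx y hy
    · have hx1 : x = 1 := Subgroup.mem_bot.1 hx
      subst hx1
      exact hy
    · exact kc_pres (hinv _) x hx y hy
  · rintro (_ | k)
    · have heq : (⊥ : Subgroup (V ≃ₗ[ZMod p] V)) = Subgroup.closure
          {t | ∃ (φ : Module.Dual (ZMod p) V) (v : V) (h : φ v = 0),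
            v ∈ (⊥ : Submodule (ZMod p) V) ∧ (∀ x ∈ (⊤ : Submodule (ZMod p) V), φ x = 0) ∧
            t = LinearEquiv.transvection h} := by
        symm
        rw [Subgroup.closure_eq_bot_iff]
        rintro t ⟨φ, v, h, hv, -, rfl⟩
        rw [Submodule.mem_bot] at hv
        subst hv
        rw [Set.mem_singleton_iff]
        exact tv_eq_one_right h
      obtain ⟨ρ, h1, h2⟩ := hSLC hSLG (ZMod p) V ⊥ ⊤ isCompl_bot_top ⊥ heq
      exact ⟨ρ, h1, Or.inl h2⟩
    · exact (hcm k).2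

end Cfsg.Agent.Lib.Helper83.MclMain
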